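import Cfsg.Agent.H959.JordanSub

/-!
# Models of nilpotent skew-adjoint endomorphisms of given Jordan type

For every multiset `μ` in which every even number has even multiplicity there is a nondegenerate symmetric
form `B` on a space and a nilpotent `N`, skew-adjoint for `B`, with Jordan type `μ`.
-/

set_option autoImplicit false

namespace Cfsg.Agent.H959

open Module

universe u

variable {F : Type u} [Field F]

/-- `B` symmetric nondegenerate and `N` skew-adjoint of type `μ`. -/
structure IsModel {V : Type*} [AddCommGroup V] [Module F V] (B : LinearMap.BilinForm F V)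
    (N : Module.End F V) (μ : Multiset ℕ) : Prop where
  symm : ∀ x y, B x y = B y x
  nondeg : ∀ x, (∀ y, B x y = 0) → x = 0
  skew : ∀ x y, B (N x) y = - B x (N y)
  type : HasType N μ

/-- Orthogonal sum of forms. -/
def sumForm {V₁ V₂ : Type*} [AddCommGroup V₁] [Module F V₁] [AddCommGroup V₂] [Module F V₂]
    (B₁ : LinearMap.BilinForm F V₁) (B₂ : LinearMap.BilinForm F V₂) : LinearMap.BilinForm F (V₁ × V₂) :=
  B₁.compl₁₂ (LinearMap.fst F V₁ V₂) (LinearMap.fst F V₁ V₂) +
    B₂.compl₁₂ (LinearMap.snd F V₁ V₂) (LinearMap.snd F V₁ V₂)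

theorem sumForm_apply {V₁ V₂ : Type*} [AddCommGroup V₁] [Module F V₁] [AddCommGroup V₂] [Module F V₂]
    (B₁ : LinearMap.BilinForm F V₁) (B₂ : LinearMap.BilinForm F V₂) (x y : V₁ × V₂) :
    sumForm B₁ B₂ x y = B₁ x.1 y.1 + B₂ x.2 y.2 := rfl

theorem prodMap_pow {V₁ V₂ : Type*} [AddCommGroup V₁] [Module F V₁] [AddCommGroup V₂] [Module F V₂]
    (N₁ : Module.End F V₁) (N₂ : Module.End F V₂) (j : ℕ) :
    (LinearMap.prodMap N₁ N₂ : Module.End F (V₁ × V₂)) ^ j = LinearMap.prodMap (N₁ ^ j) (N₂ ^ j) := by
  induction j with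
  | zero => ext x <;> rfl
  | succ j ih => rw [pow_succ, ih, pow_succ, pow_succ]; ext x <;> rfl

/-- A product of subspaces as a product space. -/
def prodSubEquiv {V₁ V₂ : Type*} [AddCommGroup V₁] [Module F V₁] [AddCommGroup V₂] [Module F V₂]
    (p : Submodule F V₁) (q : Submodule F V₂) : (p.prod q) ≃ₗ[F] (p × q) where
  toFun x := (⟨x.1.1, x.2.1⟩, ⟨x.1.2, x.2.2⟩)
  invFun y := ⟨(y.1.1, y.2.1), ⟨y.1.2, y.2.2⟩⟩
  map_add' _ _ := rfl
  map_smul' _ _ := rfl
  left_inv _ := rfl
  right_inv _ := rfl

theorem hasType_prod {V₁ V₂ : Type*} [AddCommGroup V₁] [Module F V₁] [FiniteDimensional F V₁]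
    [AddCommGroup V₂] [Module F V₂] [FiniteDimensional F V₂]
    {N₁ : Module.End F V₁} {N₂ : Module.End F V₂} {μ₁ μ₂ : Multiset ℕ} (h₁ : HasType N₁ μ₁) (h₂ : HasType N₂ μ₂) :
    HasType (LinearMap.prodMap N₁ N₂ : Module.End F (V₁ × V₂)) (μ₁ + μ₂) := by
  intro j
  rw [prodMap_pow, LinearMap.range_prodMap, Multiset.map_add, Multiset.sum_add, ← h₁ j, ← h₂ j,
    ← Module.finrank_prod]
  exact LinearEquiv.finrank_eq (prodSubEquiv _ _)

theorem isModel_prod {V₁ V₂ : Type*} [AddCommGroup V₁] [Module F V₁] [FiniteDimensional F V₁]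
    [AddCommGroup V₂] [Module F V₂] [FiniteDimensional F V₂]
    {B₁ : LinearMap.BilinForm F V₁} {B₂ : LinearMap.BilinForm F V₂}
    {N₁ : Module.End F V₁} {N₂ : Module.End F V₂} {μ₁ μ₂ : Multiset ℕ} (h₁ : IsModel B₁ N₁ μ₁) (h₂ : IsModel B₂ N₂ μ₂) :
    IsModel (sumForm B₁ B₂) (LinearMap.prodMap N₁ N₂) (μ₁ + μ₂) where
  symm x y := by rw [sumForm_apply, sumForm_apply, h₁.symm, h₂.symm]
  nondeg x hx := by
    apply Prod.ext
    · apply h₁.nondeg
      intro y
      have := hx (y, 0)
      rw [sumForm_apply] at this
      simpa using this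
    · apply h₂.nondeg
      intro y
      have := hx (0, y)
      rw [sumForm_apply] at this
      simpa using this
  skew x y := by
    rw [sumForm_apply, sumForm_apply]
    change B₁ (N₁ x.1) y.1 + B₂ (N₂ x.2) y.2 = -(B₁ x.1 (N₁ y.1) + B₂ x.2 (N₂ y.2))
    rw [h₁.skew, h₂.skew]; ring
  type := hasType_prod h₁.type h₂.type

theorem isModel_smul {V : Type*} [AddCommGroup V] [Module F V] {B : LinearMap.BilinForm F V}
    {N : Module.End F V} {μ : Multiset ℕ} (h : IsModel B N μ) {c : F} (hc : c ≠ 0) : IsModel (c • B) N μ where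
  symm x y := by simp only [LinearMap.smul_apply]; rw [h.symm]
  nondeg x hx := by
    apply h.nondeg
    intro y
    have := hx y
    simp only [LinearMap.smul_apply, smul_eq_mul] at this
    exact (mul_eq_zero.mp this).resolve_left hc
  skew x y := by
    simp only [LinearMap.smul_apply, smul_eq_mul]
    rw [h.skew]; ring
  type := h.type

/-! ### The shift -/

/-- The shift on `F ^ (n + 1)`. -/
def shift (n : ℕ) : Module.End F (Fin (n + 1) → F) where
  toFun w := Fin.cons 0 (fun k => w k.castSucc)
  map_add' v w := by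
    ext i; refine Fin.cases ?_ (fun k => ?_) i <;> simp
  map_smul' c w := by
    ext i; refine Fin.cases ?_ (fun k => ?_) i <;> simp

theorem shift_zero (n : ℕ) (w : Fin (n + 1) → F) : shift n w 0 = 0 := rfl

theorem shift_succ (n : ℕ) (w : Fin (n + 1) → F) (k : Fin n) : shift n w k.succ = w k.castSucc := rfl

theorem shift_pow (n j : ℕ) (w : Fin (n + 1) → F) (i : Fin (n + 1)) :
    ((shift n) ^ j) w i = if h : j ≤ i.val then w ⟨i.val - j, by omega⟩ else 0 := by
  induction j generalizing i with
  | zero => simp
  | succ j ih =>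
    rw [pow_succ', Module.End.mul_apply]
    refine Fin.cases ?_ (fun k => ?_) i
    · rw [shift_zero]; simp
    · rw [shift_succ, ih]
      simp only [Fin.val_castSucc, Fin.val_succ]
      split_ifs with h1 h2 h2
      · congr 1
        apply Fin.ext
        simp
      · omega
      · omega
      · rfl

theorem finrank_range_shift_pow (n j : ℕ) :
    finrank F (LinearMap.range ((shift n : Module.End F (Fin (n + 1) → F)) ^ j)) = n + 1 - j := by
  -- the range is the image of `F ^ (n + 1 - j)` under the obvious injection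
  let g : (Fin (n + 1 - j) → F) →ₗ[F] (Fin (n + 1) → F) :=
    { toFun := fun w i => if h : j ≤ i.val then w ⟨i.val - j, by omega⟩ else 0
      map_add' := fun v w => by
        ext i
        simp only [Pi.add_apply]
        split_ifs <;> simp
      map_smul' := fun c w => by
        ext i
        simp only [Pi.smul_apply, RingHom.id_apply]
        split_ifs <;> simp }
  have hg : ∀ w i, g w i = if h : j ≤ i.val then w ⟨i.val - j, by omega⟩ else 0 := fun _ _ => rfl
  have hinj : Function.Injective g := by
    rw [← LinearMap.ker_eq_bot, LinearMap.ker_eq_bot']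
    intro w hw
    ext k
    have := congrFun hw ⟨k.val + j, by omega⟩
    rw [hg] at this
    simpa using this
  have hrange : LinearMap.range ((shift n : Module.End F (Fin (n + 1) → F)) ^ j) = LinearMap.range g := by
    apply le_antisymm
    · rintro _ ⟨w, rfl⟩
      refine ⟨fun k => w ⟨k.val, by omega⟩, ?_⟩
      ext i
      rw [hg, shift_pow]
    · rintro _ ⟨w, rfl⟩
      refine ⟨fun i => if h : i.val < n + 1 - j then w ⟨i.val, h⟩ else 0, ?_⟩
      ext i
      rw [hg, shift_pow]
      split_ifs with h1 h2
      · rfl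
      · exfalso; apply h2; simp only []; omega
      · rfl
  rw [hrange, LinearMap.finrank_range_of_inj hinj, Module.finrank_fin_fun]

theorem hasType_shift (n : ℕ) : HasType (shift n : Module.End F (Fin (n + 1) → F)) {n + 1} := by
  intro j
  rw [finrank_range_shift_pow, Multiset.map_singleton, Multiset.sum_singleton]

/-- The form `∑ (-1)^i v_i w_{n-i}`. -/
def altForm (n : ℕ) : LinearMap.BilinForm F (Fin (n + 1) → F) :=
  LinearMap.mk₂ F (fun v w => ∑ i : Fin (n + 1), (-1) ^ i.val * v i * w i.rev)
    (fun v v' w => by rw [← Finset.sum_add_distrib]; refine Finset.sum_congr rfl fun i _ => ?_; simp; ring)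
    (fun c v w => by rw [smul_eq_mul, Finset.mul_sum]; refine Finset.sum_congr rfl fun i _ => ?_; simp; ring)
    (fun v w w' => by rw [← Finset.sum_add_distrib]; refine Finset.sum_congr rfl fun i _ => ?_; simp; ring)
    (fun c v w => by rw [smul_eq_mul, Finset.mul_sum]; refine Finset.sum_congr rfl fun i _ => ?_; simp; ring)

theorem altForm_apply (n : ℕ) (v w : Fin (n + 1) → F) :
    altForm n v w = ∑ i : Fin (n + 1), (-1) ^ i.val * v i * w i.rev := rfl

theorem altForm_skew (n : ℕ) (v w : Fin (n + 1) → F) : altForm n (shift n v) w = - altForm n v (shift n w) := by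
  rw [altForm_apply, altForm_apply, Fin.sum_univ_succ, Fin.sum_univ_castSucc, shift_zero]
  simp only [Fin.rev_last, shift_zero, mul_zero, add_zero, zero_mul, zero_add, shift_succ, Fin.val_succ,
    Fin.val_castSucc, Fin.rev_castSucc, Fin.rev_succ]
  rw [← Finset.sum_neg_distrib]
  refine Finset.sum_congr rfl fun k _ => ?_
  rw [pow_succ]; ring

theorem altForm_swap (n : ℕ) (v w : Fin (n + 1) → F) : altForm n v w = (-1) ^ n * altForm n w v := by
  rw [altForm_apply, altForm_apply, Finset.mul_sum, ← Equiv.sum_comp Fin.revPerm]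
  refine Finset.sum_congr rfl fun i _ => ?_
  rw [Fin.revPerm_apply, Fin.rev_rev]
  have h : (-1 : F) ^ (i.rev).val = (-1) ^ n * (-1) ^ i.val := by
    have hi : i.val + i.rev.val = n := by rw [Fin.val_rev]; omega
    have h1 : (-1 : F) ^ (i.val + i.rev.val) * (-1) ^ i.val = (-1) ^ (i.rev).val := by
      rw [pow_add, mul_comm ((-1 : F) ^ i.val), mul_assoc, ← pow_add, ← two_mul, pow_mul]
      simp
    rw [← h1, hi]
  rw [h]; ring

theorem altForm_nondeg (n : ℕ) (v : Fin (n + 1) → F) (h : ∀ w, altForm n v w = 0) : v = 0 := by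
  ext i
  have := h (Pi.single i.rev 1)
  rw [altForm_apply, Finset.sum_eq_single i] at this
  · simpa using this
  · intro k _ hk
    rw [Pi.single_eq_of_ne, mul_zero]
    intro hc
    exact hk (Fin.rev_injective hc)
  · intro hc
    exact absurd (Finset.mem_univ i) hc

/-- The odd block. -/
theorem isModel_odd (n : ℕ) (hn : Even n) :
    IsModel (altForm n : LinearMap.BilinForm F (Fin (n + 1) → F)) (shift n) {n + 1} where
  symm v w := by rw [altForm_swap, hn.neg_one_pow, one_mul]
  nondeg := altForm_nondeg n
  skew := altForm_skew n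
  type := hasType_shift n

/-- The hyperbolic form on `F^(n+1) × F^(n+1)`. -/
def pairForm (n : ℕ) : LinearMap.BilinForm F ((Fin (n + 1) → F) × (Fin (n + 1) → F)) :=
  (altForm n).compl₁₂ (LinearMap.fst F _ _) (LinearMap.snd F _ _) +
    (altForm n).flip.compl₁₂ (LinearMap.snd F _ _) (LinearMap.fst F _ _)

theorem pairForm_apply (n : ℕ) (x y : (Fin (n + 1) → F) × (Fin (n + 1) → F)) :
    pairForm n x y = altForm n x.1 y.2 + altForm n y.1 x.2 := rfl

/-- A pair of equal blocks. -/
theorem isModel_pair (n : ℕ) :
    IsModel (pairForm n : LinearMap.BilinForm F ((Fin (n + 1) → F) × (Fin (n + 1) → F)))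
      (LinearMap.prodMap (shift n) (shift n)) ({n + 1} + {n + 1}) where
  symm x y := by rw [pairForm_apply, pairForm_apply, add_comm]
  nondeg x hx := by
    apply Prod.ext
    · apply altForm_nondeg n
      intro w
      have := hx (0, w)
      rw [pairForm_apply] at this
      simpa using this
    · apply altForm_nondeg n
      intro w
      have := hx (w, 0)
      rw [pairForm_apply] at this
      rw [altForm_swap]
      have h3 : altForm n w x.2 = 0 := by simpa using this
      rw [h3, mul_zero]
  skew x y := by
    rw [pairForm_apply, pairForm_apply]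
    change altForm n (shift n x.1) y.2 + altForm n y.1 (shift n x.2) =
      -(altForm n x.1 (shift n y.2) + altForm n (shift n y.1) x.2)
    rw [altForm_skew, altForm_skew]; ring
  type := hasType_prod (hasType_shift n) (hasType_shift n)

/-- Models exist. -/
theorem exists_model (μ : Multiset ℕ) (hpos : ∀ e ∈ μ, 0 < e) (heven : ∀ e : ℕ, Even e → Even (μ.count e)) :
    ∃ (V : Type u) (_ : AddCommGroup V) (_ : Module F V) (_ : FiniteDimensional F V)
      (B : LinearMap.BilinForm F V) (N : Module.End F V), IsModel B N μ := by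
  induction hc : μ.card using Nat.strong_induction_on generalizing μ with
  | _ c ih =>
    rcases Multiset.empty_or_exists_mem μ with rfl | ⟨e, he⟩
    · refine ⟨Fin 0 → F, inferInstance, inferInstance, inferInstance, 0, 0, ?_, ?_, ?_, ?_⟩
      · intro x y; rfl
      · intro x _; exact Subsingleton.elim _ _
      · intro x y; simp
      · intro j
        rw [Multiset.map_zero, Multiset.sum_zero]
        exact Module.finrank_zero_of_subsingleton
    · obtain ⟨n, rfl⟩ : ∃ n, e = n + 1 := ⟨e - 1, by have := hpos e he; omega⟩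
      rcases Nat.even_or_odd (n + 1) with hev | hod
      · -- an even part, twice
        have hcount : 2 ≤ μ.count (n + 1) := by
          have h1 := heven _ hev
          have h3 := Multiset.count_pos.mpr he
          rw [Nat.even_iff] at h1
          omega
        have hle : ({n + 1} + {n + 1} : Multiset ℕ) ≤ μ := by
          have : ({n + 1} + {n + 1} : Multiset ℕ) = Multiset.replicate 2 (n + 1) := rfl
          rw [this, ← Multiset.le_count_iff_replicate_le]
          exact hcount
        obtain ⟨μ', rfl⟩ := Multiset.le_iff_exists_add.mp hle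
        obtain ⟨V, i1, i2, i3, B, N, hM⟩ := ih μ'.card (by rw [← hc]; simp) μ'
          (fun e he => hpos e (Multiset.mem_add.mpr (Or.inr he)))
          (fun e he => by
            have h1 := heven e he
            rw [Multiset.count_add, Multiset.count_add] at h1
            rw [Nat.even_iff] at h1 ⊢
            omega) rfl
        exact ⟨_, inferInstance, inferInstance, inferInstance, _, _, isModel_prod (isModel_pair n) hM⟩
      · have hn : Even n := by
          rcases Nat.even_or_odd n with h | h
          · exact h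
          · exact absurd h.add_one (Nat.not_even_iff_odd.mpr hod)
        have hle : ({n + 1} : Multiset ℕ) ≤ μ := Multiset.singleton_le.mpr he
        obtain ⟨μ', rfl⟩ := Multiset.le_iff_exists_add.mp hle
        obtain ⟨V, i1, i2, i3, B, N, hM⟩ := ih μ'.card (by rw [← hc]; simp) μ'
          (fun e he => hpos e (Multiset.mem_add.mpr (Or.inr he)))
          (fun e he => by
            have h1 := heven e he
            rw [Multiset.count_add, Multiset.count_singleton, if_neg] at h1
            · simpa using h1
            · rintro rfl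
              exact Nat.not_even_iff_odd.mpr hod he) rfl
        exact ⟨_, inferInstance, inferInstance, inferInstance, _, _, isModel_prod (isModel_odd n hn) hM⟩

end Cfsg.Agent.H959
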