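import Mathlib

/-!
# Jordan types of nondegenerate invariant subspaces

`N` is a nilpotent endomorphism of `V`, skew-adjoint for a symmetric bilinear form `B` (with `2 ≠ 0`).
If `W` is an `N`-invariant subspace on which `B` is nondegenerate, then the Jordan type of `N` on `W` is a
sub-multiset of the Jordan type of `N` on `V`, and its even parts have even multiplicity.
-/

set_option autoImplicit false

namespace Cfsg.Agent.H959

open Module

section General

variable {F V : Type*} [Field F] [AddCommGroup V] [Module F V] [FiniteDimensional F V]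

/-- A nondegenerate skew-symmetric form with `2 ≠ 0` lives in even dimension. -/
theorem even_finrank_of_skew (h2 : (2 : F) ≠ 0) (β : LinearMap.BilinForm F V)
    (hskew : ∀ x y, β x y = - β y x) (hnd : ∀ x, (∀ y, β x y = 0) → x = 0) : Even (finrank F V) := by
  classical
  let b := finBasis F V
  have hN : β.Nondegenerate := by
    refine ⟨hnd, fun y hy => hnd y fun x => ?_⟩
    rw [hskew, hy, neg_zero]
  have hdet := (LinearMap.BilinForm.nondegenerate_iff_det_ne_zero b).1 hN
  set G := LinearMap.BilinForm.toMatrix b β with hG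
  have hT : G.transpose = - G := by
    ext i j
    rw [Matrix.transpose_apply, Matrix.neg_apply, hG, LinearMap.BilinForm.toMatrix_apply,
      LinearMap.BilinForm.toMatrix_apply, hskew]
  have h1 : G.det = (-1) ^ (finrank F V) * G.det := by
    conv_lhs => rw [← Matrix.det_transpose, hT, Matrix.det_neg, Fintype.card_fin]
  by_contra hodd
  rw [Nat.not_even_iff_odd] at hodd
  rw [hodd.neg_one_pow] at h1
  have h3 : (2 : F) * G.det = 0 := by linear_combination h1
  rcases mul_eq_zero.mp h3 with h | h
  · exact h2 h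
  · exact hdet h

/-- Rank and nullity on a subspace. -/
theorem finrank_map_add (N : Module.End F V) (W : Submodule F V) :
    finrank F (W.map N) + finrank F (W ⊓ LinearMap.ker N : Submodule F V) = finrank F W := by
  have h := LinearMap.finrank_range_add_finrank_ker (N.domRestrict W)
  rw [LinearMap.range_domRestrict] at h
  have h' : finrank F (LinearMap.ker (N.domRestrict W)) = finrank F (W ⊓ LinearMap.ker N : Submodule F V) := by
    rw [LinearMap.ker_domRestrict, ← Submodule.finrank_map_subtype_eq W, Submodule.map_comap_subtype]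
  rw [← h, h']

omit [FiniteDimensional F V] in
theorem map_pow_succ (N : Module.End F V) (W : Submodule F V) (j : ℕ) :
    W.map (N ^ (j + 1)) = (W.map (N ^ j)).map N := by
  rw [← Submodule.map_comp, pow_succ', Module.End.mul_eq_comp]

omit [FiniteDimensional F V] in
theorem map_pow_le (N : Module.End F V) (W : Submodule F V) (hW : W.map N ≤ W) (j : ℕ) :
    W.map (N ^ (j + 1)) ≤ W.map (N ^ j) := by
  rw [pow_succ, Module.End.mul_eq_comp, Submodule.map_comp]
  exact Submodule.map_mono hW

theorem convex (N : Module.End F V) (W : Submodule F V) (hW : W.map N ≤ W) (j : ℕ) :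
    2 * finrank F (W.map (N ^ (j + 1))) ≤ finrank F (W.map (N ^ j)) + finrank F (W.map (N ^ (j + 2))) := by
  have h1 := finrank_map_add N (W.map (N ^ j))
  have h2 := finrank_map_add N (W.map (N ^ (j + 1)))
  rw [← map_pow_succ] at h1 h2
  rw [show j + 1 + 1 = j + 2 from rfl] at h2
  have h3 : finrank F (W.map (N ^ (j + 1)) ⊓ LinearMap.ker N : Submodule F V) ≤
      finrank F (W.map (N ^ j) ⊓ LinearMap.ker N : Submodule F V) :=
    Submodule.finrank_mono (inf_le_inf_right _ (map_pow_le N W hW j))
  omega

omit [FiniteDimensional F V] in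
theorem map_pow_invariant (N : Module.End F V) (W : Submodule F V) (hW : W.map N ≤ W) (j : ℕ) :
    W.map (N ^ j) ≤ W := by
  induction j with
  | zero => rw [pow_zero]; exact (Submodule.map_id W).le
  | succ j ih => exact (map_pow_le N W hW j).trans ih

variable (B : LinearMap.BilinForm F V) (hs : ∀ x y, B x y = B y x) (N : Module.End F V)
  (hN : ∀ x y, B (N x) y = - B x (N y))
include hs hN

omit [FiniteDimensional F V] hs in
theorem skew_pow (j : ℕ) (x y : V) : B ((N ^ j) x) y = (-1) ^ j * B x ((N ^ j) y) := by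
  induction j generalizing x y with
  | zero => simp
  | succ j ih =>
    rw [pow_succ', Module.End.mul_apply, hN, ih, ← Module.End.mul_apply, ← pow_succ, pow_succ', pow_succ']
    simp

/-- The rank of an odd power of `N` on a nondegenerate invariant subspace is even. -/
theorem even_rank (h2 : (2 : F) ≠ 0) (W : Submodule F V) (hW : W.map N ≤ W)
    (hnd : ∀ w ∈ W, (∀ u ∈ W, B w u = 0) → w = 0) (j : ℕ) (hj : Odd j) :
    Even (finrank F (W.map (N ^ j))) := by
  set K : Submodule F V := W ⊓ LinearMap.ker (N ^ j) with hK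
  obtain ⟨C', hC'⟩ := Submodule.exists_isCompl (K.comap W.subtype)
  set C : Submodule F V := C'.map W.subtype with hC
  have hCW : C ≤ W := Submodule.map_subtype_le W C'
  have hKW : K ≤ W := inf_le_left
  have hfin : finrank F C = finrank F (W.map (N ^ j)) := by
    have h1 := Submodule.finrank_add_eq_of_isCompl hC'
    have h3 := finrank_map_add (N ^ j) W
    have h4 : finrank F (K.comap W.subtype) = finrank F K := by
      rw [← Submodule.finrank_map_subtype_eq W, Submodule.map_comap_subtype, inf_eq_right.mpr hKW]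
    have h5 : finrank F C = finrank F C' := Submodule.finrank_map_subtype_eq W C'
    rw [← hK] at h3
    omega
  rw [← hfin]
  -- decomposition of `W`
  have hdec : ∀ w ∈ W, ∃ k ∈ K, ∃ c ∈ C, w = k + c := by
    intro w hw
    have : (⟨w, hw⟩ : W) ∈ (K.comap W.subtype) ⊔ C' := by rw [hC'.sup_eq_top]; trivial
    obtain ⟨k, hk, c, hc, hkc⟩ := Submodule.mem_sup.mp this
    exact ⟨k, hk, c, ⟨c, hc, rfl⟩, by rw [← Submodule.coe_add, hkc]⟩
  have hinf : ∀ c ∈ C, c ∈ K → c = 0 := by
    rintro _ ⟨c, hc, rfl⟩ hcK
    have : c ∈ (K.comap W.subtype) ⊓ C' := ⟨hcK, hc⟩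
    rw [hC'.inf_eq_bot] at this
    rw [(Submodule.mem_bot F).mp this, map_zero]
  let β : LinearMap.BilinForm F C := (B.comp (N ^ j) LinearMap.id).restrict C
  have hβ : ∀ x y : C, β x y = B ((N ^ j) (x : V)) (y : V) := fun x y => rfl
  refine even_finrank_of_skew h2 β ?_ ?_
  · intro x y
    rw [hβ, hβ, skew_pow B N hN, hj.neg_one_pow, hs]
    ring
  · intro x hx
    have hxW : (x : V) ∈ W := hCW x.2
    have hNx : (N ^ j) (x : V) = 0 := by
      apply hnd _ (map_pow_invariant N W hW j (Submodule.mem_map_of_mem hxW))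
      intro u hu
      obtain ⟨k, hk, c, hc, rfl⟩ := hdec u hu
      rw [map_add]
      have hk0 : B ((N ^ j) (x : V)) k = 0 := by
        rw [skew_pow B N hN, LinearMap.mem_ker.mp hk.2, map_zero, mul_zero]
      have hc0 : B ((N ^ j) (x : V)) c = 0 := hx ⟨c, hc⟩
      rw [hk0, hc0, add_zero]
    exact Subtype.ext (hinf x x.2 ⟨hxW, hNx⟩)

end General

section Comb

/-- The second difference of `j ↦ ∑ (e - j)` counts the parts. -/
theorem count_eq (μ : Multiset ℕ) (e : ℕ) :
    (μ.map (fun x => x - e)).sum + (μ.map (fun x => x - (e + 2))).sum =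
      2 * (μ.map (fun x => x - (e + 1))).sum + μ.count (e + 1) := by
  induction μ using Multiset.induction_on with
  | empty => simp
  | cons a μ ih =>
    rw [Multiset.map_cons, Multiset.sum_cons, Multiset.map_cons, Multiset.sum_cons, Multiset.map_cons,
      Multiset.sum_cons, Multiset.count_cons]
    split_ifs with h <;> omega

/-- The multiset with a given convex rank sequence. -/
def ofRanks (a : ℕ → ℕ) (K : ℕ) : Multiset ℕ :=
  ∑ e ∈ Finset.range K, Multiset.replicate (a e + a (e + 2) - 2 * a (e + 1)) (e + 1)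

theorem count_ofRanks (a : ℕ → ℕ) (K e : ℕ) :
    (ofRanks a K).count (e + 1) = if e < K then a e + a (e + 2) - 2 * a (e + 1) else 0 := by
  rw [ofRanks, Multiset.count_sum']
  simp only [Multiset.count_replicate, add_left_inj]
  rw [Finset.sum_ite_eq']
  simp

theorem count_zero_ofRanks (a : ℕ → ℕ) (K : ℕ) : (ofRanks a K).count 0 = 0 := by
  rw [ofRanks, Multiset.count_sum']
  simp [Multiset.count_replicate]

theorem sum_ofRanks_aux (a : ℕ → ℕ) (hc : ∀ j, 2 * a (j + 1) ≤ a j + a (j + 2)) (K : ℕ) :
    (ofRanks a K).sum + (K + 1) * a K = a 0 + K * a (K + 1) := by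
  induction K with
  | zero => simp [ofRanks]
  | succ K ih =>
    rw [ofRanks, Finset.sum_range_succ, ← ofRanks, Multiset.sum_add, Multiset.sum_replicate, smul_eq_mul]
    generalize (ofRanks a K).sum = S at *
    obtain ⟨c, hc'⟩ := Nat.exists_eq_add_of_le (hc K)
    rw [hc', Nat.add_sub_cancel_left]
    have h1 : (K + 1) * (a K + a (K + 2)) = (K + 1) * (2 * a (K + 1) + c) := by rw [hc']
    zify at ih h1 ⊢
    rw [show K + 1 + 1 = K + 2 from rfl]
    linear_combination ih - h1

theorem sum_ofRanks (a : ℕ → ℕ) (hc : ∀ j, 2 * a (j + 1) ≤ a j + a (j + 2)) (K : ℕ) (h0 : a K = 0)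
    (h1 : a (K + 1) = 0) : (ofRanks a K).sum = a 0 := by
  have := sum_ofRanks_aux a hc K
  rw [h0, h1] at this
  simpa using this

end Comb

section Main

variable {F V : Type*} [Field F] [AddCommGroup V] [Module F V] [FiniteDimensional F V]

/-- `N` has Jordan type `μ` (for `N` nilpotent): the ranks of its powers are those of Jordan blocks of sizes in `μ`. -/
def HasType (N : Module.End F V) (μ : Multiset ℕ) : Prop :=
  ∀ j : ℕ, finrank F (LinearMap.range (N ^ j)) = (μ.map (fun e => e - j)).sum

theorem finrank_range_eq_add (N : Module.End F V) (W W' : Submodule F V) (hc : IsCompl W W') (hW : W.map N ≤ W)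
    (hW' : W'.map N ≤ W') (j : ℕ) :
    finrank F (LinearMap.range (N ^ j)) = finrank F (W.map (N ^ j)) + finrank F (W'.map (N ^ j)) := by
  rw [LinearMap.range_eq_map, ← hc.sup_eq_top, Submodule.map_sup, ← Submodule.finrank_sup_add_finrank_inf_eq]
  have : W.map (N ^ j) ⊓ W'.map (N ^ j) = ⊥ := by
    rw [eq_bot_iff, ← hc.inf_eq_bot]
    exact inf_le_inf (map_pow_invariant N W hW j) (map_pow_invariant N W' hW' j)
  rw [this, finrank_bot, add_zero]

/-- The Jordan type of a nondegenerate invariant subspace. -/
theorem exists_sub (h2 : (2 : F) ≠ 0) (B : LinearMap.BilinForm F V) (hs : ∀ x y, B x y = B y x) (N : Module.End F V)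
    (hN : ∀ x y, B (N x) y = - B x (N y)) (μ : Multiset ℕ) (hμ : HasType N μ)
    (W : Submodule F V) (hW : W.map N ≤ W) (hnd : ∀ w ∈ W, (∀ u ∈ W, B w u = 0) → w = 0) :
    ∃ ν : Multiset ℕ, ν ≤ μ ∧ ν.sum = finrank F W ∧ (∀ e : ℕ, Even e → Even (ν.count e)) ∧
      (finrank F W + finrank F (W.map (N ^ 2)) = 2 * finrank F (W.map N) + ν.count 1) := by
  classical
  set W' : Submodule F V := B.orthogonal W with hW'
  have hrefl : LinearMap.BilinForm.IsRefl B := fun x y h => by rw [hs, h]
  have hcompl : IsCompl W W' := by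
    refine LinearMap.BilinForm.isCompl_orthogonal_of_restrict_nondegenerate hrefl ?_
    refine ⟨fun x hx => Subtype.ext (hnd x x.2 fun u hu => hx ⟨u, hu⟩),
      fun x hx => Subtype.ext (hnd x x.2 fun u hu => ?_)⟩
    rw [hs]
    exact hx ⟨u, hu⟩
  have hW'inv : W'.map N ≤ W' := by
    rintro _ ⟨x, hx, rfl⟩
    intro w hw
    have h1 : B (N w) x = 0 := hx _ (hW (Submodule.mem_map_of_mem hw))
    have h3 : B w (N x) = - B (N w) x := by rw [hN, neg_neg]
    change B w (N x) = 0
    rw [h3, h1, neg_zero]
  set a : ℕ → ℕ := fun j => finrank F (W.map (N ^ j)) with ha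
  set b : ℕ → ℕ := fun j => finrank F (W'.map (N ^ j)) with hb
  have hab : ∀ j, a j + b j = (μ.map (fun e => e - j)).sum := fun j => by
    rw [← hμ j, finrank_range_eq_add N W W' hcompl hW hW'inv]
  have hca : ∀ j, 2 * a (j + 1) ≤ a j + a (j + 2) := convex N W hW
  have hcb : ∀ j, 2 * b (j + 1) ≤ b j + b (j + 2) := convex N W' hW'inv
  -- a large index
  obtain ⟨K, hK⟩ : ∃ K, ∀ j, K ≤ j → (μ.map (fun e => e - j)).sum = 0 := by
    refine ⟨μ.sum, fun j hj => ?_⟩
    rw [Multiset.sum_eq_zero_iff]
    intro x hx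
    obtain ⟨e, he, rfl⟩ := Multiset.mem_map.mp hx
    have := Multiset.le_sum_of_mem he
    omega
  have haK : ∀ j, K ≤ j → a j = 0 := fun j hj => by have := hab j; rw [hK j hj] at this; omega
  have ha0 : a 0 = finrank F W := by
    rw [ha]
    change finrank F (W.map (N ^ 0)) = _
    rw [pow_zero, Module.End.one_eq_id, Submodule.map_id]
  have hcount : ∀ e, (ofRanks a K).count (e + 1) = a e + a (e + 2) - 2 * a (e + 1) := by
    intro e
    rw [count_ofRanks]
    split_ifs with h
    · rfl
    · rw [haK e (by omega), haK (e + 2) (by omega)]; simp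
  refine ⟨ofRanks a K, ?_, ?_, ?_, ?_⟩
  · rw [Multiset.le_iff_count]
    intro e
    rcases e with _ | e
    · rw [count_zero_ofRanks]; exact Nat.zero_le _
    · rw [hcount]
      have h1 := count_eq μ e
      rw [← hab, ← hab, ← hab] at h1
      have h3 := hca e
      have h4 := hcb e
      omega
  · rw [sum_ofRanks a hca K (haK _ le_rfl) (haK _ (by omega)), ha0]
  · intro e he
    rcases e with _ | e
    · rw [count_zero_ofRanks]; exact Even.zero
    · rw [hcount]
      have heo : Odd e := by
        rcases Nat.even_or_odd e with h | h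
        · exact absurd (h.add_one) (Nat.not_odd_iff_even.mpr he)
        · exact h
      have h1 : Even (a e) := even_rank B hs N hN h2 W hW hnd e heo
      have h3 : Even (a (e + 2)) := even_rank B hs N hN h2 W hW hnd (e + 2) (by
        rw [Nat.odd_add]; simpa using heo)
      have h4 := hca e
      rw [Nat.even_iff] at h1 h3 ⊢
      omega
  · have h1 := hcount 0
    have h3 := hca 0
    rw [zero_add] at h1
    rw [← ha0, h1]
    have h4 : a 1 = finrank F (W.map N) := by
      change finrank F (W.map (N ^ 1)) = _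
      rw [pow_one]
    have h5 : a 2 = finrank F (W.map (N ^ 2)) := rfl
    rw [← h4, ← h5]
    rw [show 0 + 1 = 1 from rfl, show 0 + 2 = 2 from rfl] at h3
    rw [show 0 + 2 = 2 from rfl]
    omega

end Main

end Cfsg.Agent.H959
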